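import Cfsg.Agent.H167.EX.OneB

/-!
# The combinatorial conditions (helper167, S4312, exceptional groups)
-/

set_option autoImplicit false
set_option linter.unusedSectionVars false

namespace Cfsg.Agent.H167.EX

open Cfsg Cfsg.Lie Cfsg.Lie.ChevalleyDatum Cfsg.Agent.ChevalleyStructure

/-- every root has an odd pairing with the given root -/
def oddB (D : ChevalleyDatum) (L1 : List ℕ) (w : List ℕ) : Bool :=
  (List.range D.nroots).all fun b => L1.contains (w.getD b 0) && decide (HMatDiagAll.expo D (w.getD b 0) b % 2 = 1)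

/-- the pairings modulo 4 -/
def code (D : ChevalleyDatum) : List ℕ → ℕ → ℕ
  | [], _ => 0
  | d :: L, b => (HMatDiagAll.expo D d b % 4).toNat + 4 * code D L b

/-- every root has a pairing 1 with the given root -/
def oneB (D : ChevalleyDatum) (w : List ℕ) : Bool :=
  (List.range D.nroots).all fun b => decide (w.getD b 0 < D.nroots) && decide (HMatDiagAll.expo D b (w.getD b 0) = 1)

theorem code_eq {D : ChevalleyDatum} {L : List ℕ} {b b' : ℕ}
    (h : ∀ d ∈ L, HMatDiagAll.expo D d b' % 4 = HMatDiagAll.expo D d b % 4) : code D L b' = code D L b := by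
  induction L with
  | nil => rfl
  | cons d L ih =>
    show (HMatDiagAll.expo D d b' % 4).toNat + 4 * code D L b' = (HMatDiagAll.expo D d b % 4).toNat + 4 * code D L b
    rw [h d List.mem_cons_self, ih fun d' hd' => h d' (List.mem_cons_of_mem _ hd')]

theorem of_oddB {D : ChevalleyDatum} {L1 w : List ℕ} (h : oddB D L1 w = true) :
    ∀ b < D.nroots, ∃ d ∈ L1, HMatDiagAll.expo D d b % 2 ≠ 0 := by
  intro b hb
  have h1 := List.all_eq_true.1 h b (List.mem_range.2 hb)
  rw [Bool.and_eq_true, decide_eq_true_iff, List.contains_iff_mem] at h1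
  refine ⟨_, h1.1, ?_⟩
  rw [h1.2]
  exact one_ne_zero

theorem of_oneB {D : ChevalleyDatum} {w : List ℕ} (h : oneB D w = true) :
    ∀ b < D.nroots, ∃ r < D.nroots, HMatDiagAll.expo D b r = 1 := by
  intro b hb
  have h1 := List.all_eq_true.1 h b (List.mem_range.2 hb)
  rw [Bool.and_eq_true, decide_eq_true_iff, decide_eq_true_iff] at h1
  exact ⟨_, h1⟩

theorem chk_of_nodup {D : ChevalleyDatum} {L1 w w' : List ℕ} (h1 : oddB D L1 w = true) (h2 : oneB D w' = true)
    (h3 : ((List.range D.nroots).map (code D L1)).Nodup) : Chk D L1 id where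
  odd := of_oddB h1
  sep _ hb _ hb' h := Or.inl (List.inj_on_of_nodup_map h3 (List.mem_range.2 hb') (List.mem_range.2 hb) (code_eq h))
  one := of_oneB h2
  lt _ h := h
  ort _ _ := Or.inl rfl

/-- the separation of the roots outside the orbits of `g` -/
def sepB (D : ChevalleyDatum) (L1 g : List ℕ) : Bool :=
  (List.range D.nroots).all fun b => (List.range D.nroots).all fun b' =>
    decide (b' = b) || decide (b' = g.getD b 0) || !decide (code D L1 b' = code D L1 b)

/-- the orbits of `g` are strongly orthogonal -/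
def ortB (D : ChevalleyDatum) (g : List ℕ) : Bool :=
  (List.range D.nroots).all fun b => decide (g.getD b 0 < D.nroots) && (decide (g.getD b 0 = b) ||
    (decide (g.getD b 0 ≠ D.neg b) && (D.commTerms b (g.getD b 0)).isEmpty &&
    (D.commTerms (D.neg b) (g.getD b 0)).isEmpty && (D.commTerms b (D.neg (g.getD b 0))).isEmpty &&
    (D.commTerms (D.neg b) (D.neg (g.getD b 0))).isEmpty))

theorem chk_of_sep {D : ChevalleyDatum} {L1 g w w' : List ℕ} (h1 : oddB D L1 w = true) (h2 : oneB D w' = true)
    (h3 : sepB D L1 g = true) (h4 : ortB D g = true) : Chk D L1 (fun b => g.getD b 0) where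
  odd := of_oddB h1
  sep b hb b' hb' h := by
    have h5 := List.all_eq_true.1 (List.all_eq_true.1 h3 b (List.mem_range.2 hb)) b' (List.mem_range.2 hb')
    rw [Bool.or_eq_true, Bool.or_eq_true, decide_eq_true_iff, decide_eq_true_iff, Bool.not_eq_true',
      decide_eq_false_iff_not] at h5
    rcases h5 with (h5 | h5) | h5
    · exact Or.inl h5
    · exact Or.inr h5
    · exact absurd (code_eq h) h5
  one := of_oneB h2
  lt b hb := by
    have h5 := List.all_eq_true.1 h4 b (List.mem_range.2 hb)
    rw [Bool.and_eq_true, decide_eq_true_iff] at h5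
    exact h5.1
  ort b hb := by
    have h5 := List.all_eq_true.1 h4 b (List.mem_range.2 hb)
    rw [Bool.and_eq_true, Bool.or_eq_true, decide_eq_true_iff, decide_eq_true_iff, Bool.and_eq_true, Bool.and_eq_true,
      Bool.and_eq_true, Bool.and_eq_true, decide_eq_true_iff] at h5
    rcases h5.2 with h6 | ⟨⟨⟨⟨h6, h7⟩, h8⟩, h9⟩, h10⟩
    · exact Or.inl h6
    · exact Or.inr ⟨h6, h7, h8, h9, h10⟩

end Cfsg.Agent.H167.EX
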