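import Cfsg.Agent.H167.EX.ChkAll

/-!
# The combinatorial conditions for `E6` (helper167, S4312, exceptional groups)
-/

set_option autoImplicit false

namespace Cfsg.Agent.H167.EX

open Cfsg Cfsg.Lie Cfsg.Lie.ChevalleyDatum Cfsg.Agent.ChevalleyStructure

def LE6 : List ℕ := [0, 1, 2, 6]

def wE6 : List ℕ :=
    [1, 0, 0, 0, 0, 0, 0, 0, 0, 0, 0, 1, 1, 1, 2, 6, 0, 0, 0, 0, 0, 0, 0, 0, 0, 0, 1, 1, 1, 2, 1, 1, 1, 2, 2,
    6, 6, 2, 2, 1, 1, 1, 2, 1, 1, 1, 0, 0, 0, 0, 0, 0, 0, 0, 0, 0, 6, 2, 1, 1, 1, 0, 0, 0, 0, 0, 0, 0, 0, 0,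
    0, 1]

def vE6 : List ℕ :=
    [1, 0, 0, 0, 0, 0, 0, 0, 0, 0, 0, 1, 1, 1, 2, 5, 0, 0, 0, 0, 0, 0, 0, 0, 0, 0, 1, 1, 1, 2, 1, 1, 1, 2, 2,
    3, 4, 3, 4, 2, 3, 4, 5, 5, 6, 7, 1, 2, 3, 4, 5, 6, 7, 8, 9, 10, 16, 16, 16, 17, 18, 16, 17, 18, 19, 20,
    21, 22, 23, 24, 25, 46]

/-- the graph automorphism on the indices of the roots -/
def gE6 : List ℕ :=
    [0, 1, 2, 5, 16, 3, 6, 17, 8, 19, 22, 11, 26, 30, 33, 35, 4, 7, 18, 9, 20, 23, 10, 21, 24, 25, 12, 27,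
    31, 34, 13, 28, 32, 14, 29, 15, 56, 42, 57, 39, 43, 58, 37, 40, 44, 59, 46, 47, 50, 61, 48, 51, 62, 53,
    64, 67, 36, 38, 41, 45, 60, 49, 52, 63, 54, 65, 68, 55, 66, 69, 70, 71]

theorem oddE6 : oddB chevE6 LE6 wE6 = true := by decide +kernel

theorem oneE6 : oneB chevE6 vE6 = true := by decide +kernel

theorem sepE6 : sepB chevE6 LE6 gE6 = true := by decide +kernel

theorem ortE6 : ortB chevE6 gE6 = true := by decide +kernel

theorem chkE6 : Chk chevE6 LE6 (fun b => gE6.getD b 0) := chk_of_sep oddE6 oneE6 sepE6 ortE6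

theorem twoE6_0 : two chevE6 0 = true := by decide +kernel

theorem twoE6_1 : two chevE6 1 = true := by decide +kernel

theorem twoE6_2 : two chevE6 2 = true := by decide +kernel

theorem twoE6_6 : two chevE6 6 = true := by decide +kernel

theorem twoE6 : ∀ d ∈ LE6, two chevE6 d = true := by
  intro d hd
  have h : d = 0 ∨ d = 1 ∨ d = 2 ∨ d = 6 := by simpa [LE6] using hd
  rcases h with rfl | rfl | rfl | rfl
  · exact twoE6_0
  · exact twoE6_1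
  · exact twoE6_2
  · exact twoE6_6

theorem ltE6 : ∀ d ∈ LE6, d < chevE6.nroots := by decide +kernel

end Cfsg.Agent.H167.EX
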