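import Cfsg.Agent.H167.EX.ChkAll

/-!
# The combinatorial conditions for `F4` (helper167, S4312, exceptional groups)
-/

set_option autoImplicit false

namespace Cfsg.Agent.H167.EX

open Cfsg Cfsg.Lie Cfsg.Lie.ChevalleyDatum Cfsg.Agent.ChevalleyStructure

def LF4 : List ℕ := [0, 1, 2, 4]

def wF4 : List ℕ :=
    [1, 0, 0, 0, 0, 0, 1, 0, 0, 0, 1, 0, 1, 2, 4, 0, 0, 1, 0, 1, 2, 0, 1, 0, 0, 1, 0, 2, 1, 0, 1, 0, 0, 4, 2,
    1, 0, 1, 0, 0, 0, 1, 0, 0, 0, 0, 0, 1]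

def vF4 : List ℕ :=
    [1, 0, 0, 7, 0, 0, 1, 3, 3, 3, 3, 3, 3, 3, 3, 0, 0, 1, 7, 7, 7, 0, 1, 0, 1, 2, 2, 8, 9, 10, 4, 4, 5, 7,
    8, 9, 10, 11, 12, 13, 14, 15, 15, 16, 33, 21, 23, 24]

theorem oddF4 : oddB chevF4 LF4 wF4 = true := by decide +kernel

theorem oneF4 : oneB chevF4 vF4 = true := by decide +kernel

theorem nodupF4 : ((List.range chevF4.nroots).map (code chevF4 LF4)).Nodup := by decide +kernel

theorem chkF4 : Chk chevF4 LF4 id := chk_of_nodup oddF4 oneF4 nodupF4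

theorem twoF4_0 : two chevF4 0 = true := by decide +kernel

theorem twoF4_1 : two chevF4 1 = true := by decide +kernel

theorem twoF4_2 : two chevF4 2 = true := by decide +kernel

theorem twoF4_4 : two chevF4 4 = true := by decide +kernel

theorem twoF4 : ∀ d ∈ LF4, two chevF4 d = true := by
  intro d hd
  have h : d = 0 ∨ d = 1 ∨ d = 2 ∨ d = 4 := by simpa [LF4] using hd
  rcases h with rfl | rfl | rfl | rfl
  · exact twoF4_0
  · exact twoF4_1
  · exact twoF4_2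
  · exact twoF4_4

theorem ltF4 : ∀ d ∈ LF4, d < chevF4.nroots := by decide +kernel

end Cfsg.Agent.H167.EX
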