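import Cfsg.Agent.H167.EX.CompZ
import Cfsg.Agent.H167.EX.OneB
import Cfsg.Agent.Lib.Cores

/-!
# The Fitting subgroup of a `{2, 3, p}'`... group containing the toral 2-group (helper167, S4312, exceptional groups)

`one` : `H ≤ D.group k` finite of order prime to `3 p`, containing the `h_d(i)`, `d ∈ L1`: there is a normal subgroup
`N ≤ TT` of odd order with `C_H(O_2(H) N) ≤ O_2(H) N`.
-/

set_option autoImplicit false
set_option linter.unusedSectionVars false

namespace Cfsg.Agent.H167.EX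

section NoComp

open Subgroup Cfsg Cfsg.Agent.SignalizersComponents.Components

variable {H : Type*} [Group H] [Finite H] {K : Subgroup H}

/-- a component of a 3'-group contains noncommuting elements of odd order -/
theorem CompZ.no_comp (h3 : ¬ 3 ∣ Nat.card H) (hK : IsComponent K)
    (hab : ∀ a ∈ K, ∀ b ∈ K, ∀ m : ℕ, Odd m → a ^ m = 1 → b ^ m = 1 → a * b = b * a) : False := by
  have hSz := CompZ.isoSuz h3 hK.2
  obtain ⟨vb, hv1, hv5⟩ := SzFour.exists_ord hSz
  obtain ⟨v0, rfl⟩ := QuotientGroup.mk_surjective vb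
  obtain ⟨a, m, hm, hvm, hne, hv5'⟩ := CompZ.lift_odd hv5 hv1
  set v := v0 ^ 2 ^ a with hv
  have hcomm : ∀ x ∈ Group.conjugatesOfSet {v}, ∀ y ∈ Group.conjugatesOfSet {v}, x * y = y * x := by
    intro x hx y hy
    rw [Group.mem_conjugatesOfSet_iff] at hx hy
    obtain ⟨_, rfl, hx⟩ := hx
    obtain ⟨_, rfl, hy⟩ := hy
    obtain ⟨c, rfl⟩ := isConj_iff.1 hx
    obtain ⟨d, rfl⟩ := isConj_iff.1 hy
    apply Subtype.ext
    refine hab _ (c * v * c⁻¹).2 _ (d * v * d⁻¹).2 m hm ?_ ?_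
    · have : (c * v * c⁻¹) ^ m = 1 := by rw [conj_pow, hvm, mul_one, mul_inv_cancel]
      have h4 := congrArg Subtype.val this
      rwa [coe_pow] at h4
    · have : (d * v * d⁻¹) ^ m = 1 := by rw [conj_pow, hvm, mul_one, mul_inv_cancel]
      have h4 := congrArg Subtype.val this
      rwa [coe_pow] at h4
  have hN : ∀ x ∈ normalClosure {v}, ∀ y ∈ normalClosure {v}, x * y = y * x := by
    have h4 : normalClosure {v} ≤ centralizer (Group.conjugatesOfSet {v}) := by
      refine (closure_le _).2 fun x hx => ?_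
      rw [SetLike.mem_coe, mem_centralizer_iff]
      exact fun y hy => hcomm y hy x hx
    have h5 : normalClosure {v} ≤ centralizer (normalClosure {v} : Set K) := by
      refine (closure_le _).2 fun x hx => ?_
      rw [SetLike.mem_coe, mem_centralizer_iff]
      exact fun y hy => (mem_centralizer_iff.1 (h4 hy) x hx).symm
    intro x hx y hy
    exact mem_centralizer_iff.1 (h5 hy) x hx
  rcases quasisimple_normal hK.2 (normalClosure {v}) normalClosure_normal with h | h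
  · refine quasisimple_not_isMulCommutative hK.2 ⟨⟨fun x y => ?_⟩⟩
    exact hN x (by rw [h]; exact mem_top x) y (by rw [h]; exact mem_top y)
  · exact hne ((QuotientGroup.eq_one_iff _).2 (h (subset_normalClosure (Set.mem_singleton v))))

end NoComp

section Chev

open CoxeterSystem Cfsg Cfsg.Lie Cfsg.Lie.ChevalleyDatum
open Cfsg.Agent.ChevalleyStructure Cfsg.Agent.ChevalleyStructure.Elts Cfsg.Agent.ChevalleyStructure.CoxeterGeom
  Cfsg.Agent.ChevalleyStructure.CoxeterGeomTypes Cfsg.Agent.ChevalleyStructure.NPerm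
open Cfsg.Agent.Tits.Roots Cfsg.Agent.Tits.Core Cfsg.Agent.Nodes Cfsg.Agent.Nodes.Reps Cfsg.Agent.Nodes.BNOf
  Cfsg.Agent.Nodes.RGDChev Cfsg.Agent.Nodes.Bruhat Cfsg.Agent.Nodes.NormalForm
open Cfsg.Agent.KFacts.RgdField Cfsg.Agent.KFacts.RgdChevCoord
open Cfsg.Agent.BpExc Cfsg.Agent.BpExc.TorCent Cfsg.Agent.BpExc.TorChev Cfsg.Agent.BpExc.Tow
  Cfsg.Agent.BpExc.TowChev Cfsg.Agent.BpExc.Fr Cfsg.Agent.BpExc.Pair Cfsg.Agent.BpExc.LangFr Cfsg.Agent.GpExc.Field
  Cfsg.Agent.BpExc.TorAll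
open Cfsg.Agent.H469.Exc Cfsg.Agent.H469.Exc.SigFr

universe u v

variable {D : ChevalleyDatum} {l : ℕ} {M : CoxeterMatrix (Fin l)} (hp : IsType D l M) {k : Type u} [Field k]

include hp in
theorem sqC_of [IsAlgClosed k] (p : ℕ) [Fact p.Prime] [CharP k p] (hk : LocFin k) (hA : HAlg p k)
    (hc : cnt D l = true) {H : Subgroup ↥(D.group k)} [Finite H] (h3 : ¬ 3 ∣ Nat.card H) (hpH : ¬ p ∣ Nat.card H)
    {x : H} (hx4 : x ^ 4 = 1) (hx : Module.finrank k (LinearMap.ker (rho D k (x : ↥(D.group k)) + 1)) ≤ 2) :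
    CompZ.SqC x := by
  intro N hab hN m hm hNm n hn
  have hcard : 0 < Nat.card H := Nat.card_pos
  set m' := Nat.gcd m (Nat.card H) with hm'
  have hNm' : ∀ a ∈ N, a ^ m' = 1 := by
    intro a ha
    have h1 := orderOf_dvd_of_pow_eq_one (hNm a ha)
    have h2 := orderOf_dvd_natCard a
    exact orderOf_dvd_iff_pow_eq_one.1 (Nat.dvd_gcd h1 h2)
  have h6 : m'.Coprime 6 := by
    rw [show 6 = 2 * 3 by norm_num]
    refine Nat.Coprime.mul_right ?_ ?_
    · refine Nat.Coprime.coprime_dvd_left (Nat.gcd_dvd_left _ _) (Nat.coprime_two_right.2 hm)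
    · refine Nat.Coprime.coprime_dvd_left (Nat.gcd_dvd_right _ _) ?_
      exact ((Nat.Prime.coprime_iff_not_dvd Nat.prime_three).2 h3).symm
  have hmp : m'.Coprime p := Nat.Coprime.coprime_dvd_left (Nat.gcd_dvd_right _ _)
    ((Nat.Prime.coprime_iff_not_dvd Fact.out).2 hpH).symm
  have h := sq_comm hp p hk hA hc (x := (x : ↥(D.group k))) (by
      have := congrArg Subtype.val hx4
      rwa [Subgroup.coe_pow] at this) hx (N := N.map H.subtype) (m := m') (by
    rintro _ ⟨a, ha, rfl⟩ _ ⟨b, hb, rfl⟩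
    exact congrArg Subtype.val (hab a ha b hb)) (by
    rintro _ ⟨a, ha, rfl⟩
    exact ⟨x * a * x⁻¹, hN a ha, rfl⟩) (by
    rintro _ ⟨a, ha, rfl⟩
    have := congrArg Subtype.val (hNm' a ha)
    rwa [Subgroup.coe_pow] at this) h6 hmp (n := (n : ↥(D.group k))) ⟨n, hn, rfl⟩
  apply Subtype.ext
  rw [Subgroup.coe_mul, Subgroup.coe_mul, Subgroup.coe_pow]
  exact h

/-- **no components** -/
theorem layer_bot [IsAlgClosed k] (h2 : (2 : k) ≠ 0) (p : ℕ) [Fact p.Prime] [CharP k p] (hk : LocFin k) (hA : HAlg p k)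
    (hc : cnt D l = true) {L1 : List ℕ} {g : ℕ → ℕ} (K : Chk D L1 g) (hL1 : ∀ d ∈ L1, d < D.nroots)
    (htwo : ∀ d ∈ L1, two D d = true) {i : k} (hi : i * i = -1) (H : Subgroup ↥(D.group k)) [Finite H]
    (h3 : ¬ 3 ∣ Nat.card H) (hpH : ¬ p ∣ Nat.card H) (hx : ∀ d ∈ L1, xd hp i d ∈ H) : layer H = ⊥ := by
  rw [Cfsg.Agent.SignalizersComponents.ComponentExists.layer_eq_bot_iff]
  intro L hL
  refine CompZ.no_comp h3 hL ?_
  -- the odd elements of `L` lie in `TT`
  have key : ∀ a ∈ L, ∀ m : ℕ, Odd m → a ^ m = 1 → (a : ↥(D.group k)) ∈ TT D k := by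
    intro a ha m hm ham
    have ham' : (a : ↥(D.group k)) ^ m = 1 := by
      have := congrArg Subtype.val ham
      rwa [Subgroup.coe_pow] at this
    refine mem_TT_of_sq hp h2 p hk K hL1 hi (m := m) hm ham' fun d hd => ?_
    have hx4 : (⟨xd hp i d, hx d hd⟩ : H) ^ 4 = 1 := Subtype.ext (by
      rw [Subgroup.coe_pow]
      exact xd_four hp hi d)
    have h5 := CompZ.sq_comp h3 hL hx4 (sqC_of hp p hk hA hc h3 hpH hx4 (ker_xd hp h2 hi (hL1 d hd) (htwo d hd)))
      a ha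
    have h6 := congrArg Subtype.val h5
    rw [Subgroup.coe_mul, Subgroup.coe_mul, Subgroup.coe_pow] at h6
    exact h6
  intro a ha b hb m hm ham hbm
  have h7 := TT_comm hp _ (key a ha m hm ham) _ (key b hb m hm hbm)
  rw [← Subgroup.coe_mul, ← Subgroup.coe_mul] at h7
  exact Subtype.ext h7

theorem odd_le [IsAlgClosed k] (h2 : (2 : k) ≠ 0) (p : ℕ) [Fact p.Prime] [CharP k p] (hk : LocFin k) (hA : HAlg p k)
    (hc : cnt D l = true) {L1 : List ℕ} {g : ℕ → ℕ} (K : Chk D L1 g) (hL1 : ∀ d ∈ L1, d < D.nroots)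
    (htwo : ∀ d ∈ L1, two D d = true) {i : k} (hi : i * i = -1) (H : Subgroup ↥(D.group k)) [Finite H]
    (h3 : ¬ 3 ∣ Nat.card H) (hpH : ¬ p ∣ Nat.card H) (hx : ∀ d ∈ L1, xd hp i d ∈ H) (N : Subgroup ↥H)
    (hNn : N.Normal) (hodd : Odd (Nat.card N)) (hsol : Group.IsSolvable N) :
    ∀ n ∈ N, (n : ↥(D.group k)) ∈ TT D k := by
  let e := N.equivMapOfInjective H.subtype H.subtype_injective
  have hcd : Nat.card (N.map H.subtype) = Nat.card N := Nat.card_congr e.toEquiv.symm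
  have hsol' : Group.IsSolvable (N.map H.subtype) :=
    Group.isSolvable_of_isSolvable_injective (f := e.symm.toMonoidHom) e.symm.injective
  have hfin : Finite (N.map H.subtype) := Finite.of_equiv N e.toEquiv
  have h6 : (Nat.card (N.map H.subtype)).Coprime 6 := by
    rw [hcd, show 6 = 2 * 3 by norm_num]
    refine Nat.Coprime.mul_right (Nat.coprime_two_right.2 hodd) ?_
    exact Nat.Coprime.coprime_dvd_left (Subgroup.card_subgroup_dvd_card N)
      ((Nat.Prime.coprime_iff_not_dvd Nat.prime_three).2 h3).symm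
  have hNp : (Nat.card (N.map H.subtype)).Coprime p := by
    rw [hcd]
    exact Nat.Coprime.coprime_dvd_left (Subgroup.card_subgroup_dvd_card N)
      ((Nat.Prime.coprime_iff_not_dvd Fact.out).2 hpH).symm
  have hinv : ∀ d ∈ L1, ∀ v ∈ N.map H.subtype, xd hp i d * v * (xd hp i d)⁻¹ ∈ N.map H.subtype := by
    rintro d hd _ ⟨n, hn, rfl⟩
    refine ⟨⟨xd hp i d, hx d hd⟩ * n * ⟨xd hp i d, hx d hd⟩⁻¹, hNn.conj_mem n hn _, ?_⟩
    rw [Subgroup.subtype_apply, Subgroup.subtype_apply, Subgroup.coe_mul, Subgroup.coe_mul, Subgroup.coe_inv]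
  have hle := oneA hp h2 p hk hA hc K hL1 (fun _ hd => hd) htwo hi _ (N.map H.subtype) rfl hfin hsol' h6 hNp hinv
  intro n hn
  have h7 := Subgroup.mem_map_of_mem H.subtype hn
  exact hle h7

/-- **The Fitting subgroup of a finite group of order prime to `3 p` containing the toral 2-group.** -/
theorem one [IsAlgClosed k] (h2 : (2 : k) ≠ 0) (p : ℕ) [Fact p.Prime] [CharP k p] (hk : LocFin k) (hA : HAlg p k)
    (hc : cnt D l = true) {L1 : List ℕ} {g : ℕ → ℕ} (K : Chk D L1 g) (hL1 : ∀ d ∈ L1, d < D.nroots)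
    (htwo : ∀ d ∈ L1, two D d = true) {i : k} (hi : i * i = -1) (H : Subgroup ↥(D.group k)) [Finite H]
    (h3 : ¬ 3 ∣ Nat.card H) (hpH : ¬ p ∣ Nat.card H) (hx : ∀ d ∈ L1, xd hp i d ∈ H) :
    ∃ N : Subgroup ↥H, N.Normal ∧ Odd (Nat.card N) ∧ (∀ n ∈ N, (n : ↥(D.group k)) ∈ TT D k) ∧
      Subgroup.centralizer ((pCore 2 H ⊔ N : Subgroup ↥H) : Set ↥H) ≤ pCore 2 H ⊔ N := by
  have hf2 : Fact (Nat.Prime 2) := ⟨Nat.prime_two⟩
  have hlayer := layer_bot hp h2 p hk hA hc K hL1 htwo hi H h3 hpH hx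
  have hcent := Cfsg.Agent.SignalizersComponents.ComponentExists.centralizer_fitting_le_of_layer_eq_bot hlayer
  have hFn := Cfsg.Agent.Lib.Cores.fittingSubgroup_normal (G := H)
  have hPn := Cfsg.Agent.Lib.Cores.pPrimeCore_normal (G := H) 2
  have hF : fittingSubgroup H = pCore 2 H ⊔ (fittingSubgroup H ⊓ pPrimeCore 2 H) :=
    le_antisymm (Cfsg.Agent.TwoFusion.FStarControl.fitting_le_sup 2)
      (sup_le (Cfsg.Agent.Lib.Cores.pCore_le_fittingSubgroup 2) inf_le_left)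
  have hNn : (fittingSubgroup H ⊓ pPrimeCore 2 H).Normal := Subgroup.normal_inf_normal _ _
  have hodd : Odd (Nat.card ↥(fittingSubgroup H ⊓ pPrimeCore 2 H)) := by
    have h1 : (Nat.card (pPrimeCore 2 H)).Coprime 2 := Cfsg.Agent.Lib.Cores.pPrimeCore_coprime 2
    exact Nat.coprime_two_right.1 (Nat.Coprime.coprime_dvd_left (Subgroup.card_dvd_of_le inf_le_right) h1)
  have hsol : Group.IsSolvable ↥(fittingSubgroup H ⊓ pPrimeCore 2 H) := by
    have h1 : Group.IsNilpotent (fittingSubgroup H) := Cfsg.Agent.Lib.Cores.fittingSubgroup_isNilpotent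
    have h4 : Group.IsSolvable (fittingSubgroup H) := inferInstance
    exact Group.isSolvable_of_isSolvable_injective
      (Subgroup.inclusion_injective (inf_le_left : fittingSubgroup H ⊓ pPrimeCore 2 H ≤ fittingSubgroup H))
  refine ⟨fittingSubgroup H ⊓ pPrimeCore 2 H, hNn, hodd,
    odd_le hp h2 p hk hA hc K hL1 htwo hi H h3 hpH hx _ hNn hodd hsol, ?_⟩
  rw [← hF]
  exact hcent

end Chev

end Cfsg.Agent.H167.EX
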